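import Mathlib

/-! Computations in `A₆` and `A₇`. -/

set_option autoImplicit false
set_option synthInstance.maxSize 2000

namespace Cfsg.Agent.MiX

open Equiv Equiv.Perm Subgroup

abbrev A6 := alternatingGroup (Fin 6)
abbrev A7 := alternatingGroup (Fin 7)

def a6 : A6 := ⟨swap 0 2 * swap 0 1, mem_alternatingGroup.2 (by decide +kernel)⟩
def b6 : A6 := ⟨swap 3 5 * swap 3 4, mem_alternatingGroup.2 (by decide +kernel)⟩
def c6 : A6 := ⟨swap 2 3 * swap 4 5, mem_alternatingGroup.2 (by decide +kernel)⟩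
def a7 : A7 := ⟨swap 0 2 * swap 0 1, mem_alternatingGroup.2 (by decide +kernel)⟩
def b7 : A7 := ⟨swap 3 5 * swap 3 4, mem_alternatingGroup.2 (by decide +kernel)⟩

theorem k1 : ∀ s : Perm (Fin 6), sign s = 1 → ∃ u : Perm (Fin 6), u * s = s⁻¹ * u ∧ sign u = 1 := by decide +kernel

theorem k2 : ∀ s : Perm (Fin 6), s ^ 3 = 1 → s = 1 ∨ ∃ u : Perm (Fin 6),
    (u * s = a6.1 * u ∨ u * s = a6.1 * b6.1 * u) ∧ sign u = 1 := by decide +kernel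

theorem k3 : ∀ s : Perm (Fin 6), s * (a6.1 * b6.1) = a6.1 * b6.1 * s → s ^ 3 = 1 → s = 1 ∨ s = a6.1 * b6.1 ∨
    s = (a6.1 * b6.1)⁻¹ ∨ s = a6.1 * b6.1⁻¹ ∨ s = a6.1⁻¹ * b6.1 ∨ s.support.card = 3 := by decide +kernel

theorem k4 : ∀ d : Perm (Fin 6), d * d = 1 → (a6.1 * b6.1 * d) ^ 4 = 1 → (a6.1 * b6.1⁻¹ * d) ^ 3 = 1 → sign d = 1 →
    ∃ u : Perm (Fin 6), u * (a6.1 * b6.1 * c6.1) ^ 2 = a6.1 * b6.1 * (a6.1 * b6.1⁻¹) * d * u ∧ sign u = 1 := by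
  decide +kernel

end Cfsg.Agent.MiX
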