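import Cfsg.Agent.H26.AltOdd
import Cfsg.Agent.MiX.Altk

/-! Computations in `A₆` and `A₇`, continued. -/

set_option autoImplicit false
set_option synthInstance.maxSize 2000

namespace Cfsg.Agent.MiX

open Equiv Equiv.Perm Subgroup

theorem isConj_of {n : ℕ} {x y : alternatingGroup (Fin n)} {u : Perm (Fin n)} (h : u * x.1 = y.1 * u) (hu : sign u = 1) :
    IsConj x y := isConj_iff.2 ⟨⟨u, hu⟩, Subtype.ext (mul_inv_eq_iff_eq_mul.2 h)⟩

theorem real6 (s : A6) : IsConj s s⁻¹ := by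
  obtain ⟨u, h1, h2⟩ := k1 s.1 s.2
  exact isConj_of h1 h2

theorem a6_pow : a6 ^ 3 = 1 := by decide +kernel
theorem b6_pow : b6 ^ 3 = 1 := by decide +kernel
theorem a6_ne : a6 ≠ 1 := by decide +kernel
theorem b6_ne : b6 ≠ 1 := by decide +kernel
theorem ab6 : a6 * b6 = b6 * a6 := by decide +kernel
theorem a7_pow : a7 ^ 3 = 1 := by decide +kernel
theorem b7_pow : b7 ^ 3 = 1 := by decide +kernel
theorem a7_ne : a7 ≠ 1 := by decide +kernel
theorem ab7 : a7 * b7 = b7 * a7 := by decide +kernel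
theorem ne7 : a7 ≠ 1 ∧ b7 ≠ 1 ∧ a7 * b7 ≠ 1 ∧ a7 ^ 2 ≠ 1 ∧ b7 ^ 2 ≠ 1 ∧ a7 ^ 2 * b7 ≠ 1 ∧ a7 * b7 ^ 2 ≠ 1 := by
  decide +kernel
theorem c6_pow : c6 * c6 = 1 ∧ (a6 * c6) ^ 4 = 1 ∧ (b6 * c6) ^ 3 = 1 := by decide +kernel
theorem f6_pow : (a6 * b6 * c6) ^ 5 = 1 := by decide +kernel
theorem f6_ne : a6 * b6 * c6 ≠ 1 := by decide +kernel
theorem ne6 : b6 ≠ a6 ∧ b6 ≠ a6⁻¹ := by decide +kernel
theorem a6_three : IsThreeCycle a6.1 := card_support_eq_three_iff.1 (by decide +kernel)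
theorem b6_three : IsThreeCycle b6.1 := card_support_eq_three_iff.1 (by decide +kernel)
theorem ab6_not : ¬ IsThreeCycle (a6 * b6).1 := fun h => absurd h.card_support (by decide +kernel)
theorem flip6 : swap 0 1 * a6.1 * (swap 0 1)⁻¹ = a6.1⁻¹ ∧ swap 0 1 * b6.1 * (swap 0 1)⁻¹ = b6.1 := by decide +kernel
theorem flip7 : swap 0 1 * a7.1 * (swap 0 1)⁻¹ = a7.1⁻¹ ∧ swap 0 1 * b7.1 * (swap 0 1)⁻¹ = b7.1 := by decide +kernel

theorem not_mem_zpowers {G : Type*} [Group G] {a b : G} (ha : a ^ 3 = 1) (h0 : b ≠ 1) (h1 : b ≠ a) (h2 : b ≠ a⁻¹) :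
    b ∉ zpowers a := by
  rintro ⟨k, rfl⟩
  have h3 : a ^ (3 : ℤ) = 1 := by exact_mod_cast ha
  have := zpow_eq_zpow_emod k h3
  obtain c | c | c : k % 3 = 0 ∨ k % 3 = 1 ∨ k % 3 = 2 := by omega
  all_goals rw [c] at this
  · exact h0 (by simpa using this)
  · exact h1 (by simpa using this)
  · exact h2 (this.trans (eq_inv_of_mul_eq_one_left (by rw [← zpow_add_one]; exact h3)))

theorem b6_not : b6 ∉ zpowers a6 := not_mem_zpowers a6_pow b6_ne ne6.1 ne6.2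
theorem b7_not : b7 ∉ zpowers a7 := not_mem_zpowers a7_pow (by decide +kernel) (by decide +kernel) (by decide +kernel)

theorem three6 {s : A6} (h : s ^ 3 = 1) (h1 : s ≠ 1) : IsConj s a6 ∨ IsConj s (a6 * b6) := by
  rcases k2 s.1 (congrArg Subtype.val h) with c | ⟨u, c | c, hu⟩
  exacts [absurd (Subtype.ext c) h1, Or.inl (isConj_of c hu), Or.inr (isConj_of c hu)]

theorem three_of_isConj {x y : A6} (h : IsConj x y) (hx : IsThreeCycle x.1) : IsThreeCycle y.1 :=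
  (isConj_iff_cycleType_eq.1 ((alternatingGroup _).subtype.map_isConj h)).symm.trans hx

theorem cent6 {s : A6} (h : s * (a6 * b6) = a6 * b6 * s) (h3 : s ^ 3 = 1) (h1 : s ≠ 1) (h2 : s ≠ a6 * b6)
    (h4 : s ≠ (a6 * b6)⁻¹) (h5 : ¬ IsThreeCycle s.1) : s = a6 * b6⁻¹ ∨ s = a6⁻¹ * b6 := by
  rcases k3 s.1 (congrArg Subtype.val h) (congrArg Subtype.val h3) with c | c | c | c | c | c
  exacts [absurd (Subtype.ext c) h1, absurd (Subtype.ext c) h2, absurd (Subtype.ext c) h4, Or.inl (Subtype.ext c),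
    Or.inr (Subtype.ext c), absurd (card_support_eq_three_iff.1 c) h5]

theorem swap5 {d : A6} (h1 : d * d = 1) (h2 : (a6 * b6 * d) ^ 4 = 1) (h3 : (a6 * b6⁻¹ * d) ^ 3 = 1) :
    IsConj ((a6 * b6 * c6) ^ 2) (a6 * b6 * (a6 * b6⁻¹) * d) := by
  obtain ⟨u, c, hu⟩ := k4 d.1 (congrArg Subtype.val h1) (congrArg Subtype.val h2) (congrArg Subtype.val h3) d.2
  exact isConj_of c hu

/-- an automorphism that is conjugation by a permutation is inner, possibly after a flip -/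
theorem inner_or_flip {n : ℕ} {α : MulAut (alternatingGroup (Fin n))} {σ : Perm (Fin n)} {i j : Fin n} (hij : i ≠ j)
    (h : ∀ x, (α x : Perm (Fin n)) = σ * x * σ⁻¹) : (∃ s, ∀ x, α x = s * x * s⁻¹) ∨
      ∃ s, ∀ x, ((s * α x * s⁻¹ : alternatingGroup (Fin n)) : Perm (Fin n)) = swap i j * x * (swap i j)⁻¹ := by
  rcases Int.units_eq_one_or (sign σ) with c | c
  · exact Or.inl ⟨⟨σ, c⟩, fun x => Subtype.ext (h x)⟩
  · refine Or.inr ⟨⟨swap i j * σ⁻¹, by simp [c, sign_swap hij]⟩, fun x => ?_⟩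
    rw [Subgroup.coe_mul, Subgroup.coe_mul, Subgroup.coe_inv, h]
    dsimp only
    group

theorem card6 : Nat.card A6 = 360 := by rw [nat_card_alternatingGroup, Nat.card_fin]; rfl
theorem card7 : Nat.card A7 = 2520 := by rw [nat_card_alternatingGroup, Nat.card_fin]; rfl

end Cfsg.Agent.MiX
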