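import Cfsg.Agent.MiX.Base
import Cfsg.Agent.MiX.Altc

/-! The normalisers of `3.A₆` and `3.A₇` in `GL₃(F)`. -/

set_option autoImplicit false
set_option linter.style.haveILetI false

namespace Cfsg.Agent.MiX

open Cfsg.Geo Matrix Subgroup Cfsg.Agent.H18 Cfsg.Agent.H18.Mi Equiv Equiv.Perm
open scoped commutatorElement

attribute [local irreducible] a6 b6 c6 a7 b7

variable {F : Type*} [Field F] [Fintype F] {P : Subgroup (GL (Fin 3) F)}

theorem idx_coprime {G : Type*} [Group G] [Finite G] {a b : G} (hab : a * b = b * a) (ha : a ^ 3 = 1) (hb : b ^ 3 = 1)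
    (h1 : a ≠ 1) (h2 : b ∉ zpowers a) {m : ℕ} (hG : Nat.card G = 9 * m) (hm : m.Coprime 3) :
    (closure ({a, b} : Set G)).index.Coprime 3 := by
  obtain ⟨c, hc⟩ := nine_dvd hab ha hb h1 h2
  have := (closure ({a, b} : Set G)).card_mul_index
  rw [hc, hG, mul_assoc] at this
  exact hm.coprime_dvd_left (Dvd.intro_left c (by omega))

/-- automorphisms given by a permutation -/
theorem mem_of_perm {n : ℕ} {π : P →* alternatingGroup (Fin n)} (h : Prj P π) {A B : P} (hc : π ⁅A, B⁆ = 1)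
    (hAB : A * B ≠ B * A) {i j : Fin n} (hij : i ≠ j)
    (e1 : swap i j * (π A).1 * (swap i j)⁻¹ = (π A).1⁻¹) (e2 : swap i j * (π B).1 * (swap i j)⁻¹ = (π B).1)
    {g : GL (Fin 3) F} {α : MulAut (alternatingGroup (Fin n))} (hg : Ind π g α) {σ : Perm (Fin n)}
    (hσ : ∀ x, (α x : Perm (Fin n)) = σ * x * σ⁻¹) : g ∈ P ⊔ scalars (Fin 3) F := by
  rcases inner_or_flip hij hσ with ⟨s, hs⟩ | ⟨s, hs⟩
  · exact h.mem_of_inner hg hs
  · obtain ⟨u, rfl⟩ := h.surj s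
    exact absurd (h.no_flip ((ind_inner π u).mul hg) hc (Subtype.ext ((hs _).trans e1))
      (Subtype.ext ((hs _).trans e2))) hAB

theorem comm_sq {G : Type*} [Group G] {A B : G} (h : ∀ x, ⁅A, B⁆ * x = x * ⁅A, B⁆) :
    ⁅A * B, A⁻¹ * B⁆ = ⁅A, B⁆ ^ 2 := by
  obtain ⟨z, hz⟩ : ∃ z, z = ⁅A, B⁆ := ⟨_, rfl⟩
  rw [← hz] at h ⊢
  have h1 : A * B = z * B * A := by rw [hz, commutatorElement_def]; group
  have h2 : B * A⁻¹ = z * A⁻¹ * B := by
    calc _ = A⁻¹ * (A * B) * A⁻¹ := by group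
      _ = A⁻¹ * z * B := by rw [h1]; group
      _ = _ := by rw [h A⁻¹]
  rw [commutatorElement_def, mul_inv_eq_iff_eq_mul, mul_inv_eq_iff_eq_mul]
  calc _ = A * (B * A⁻¹) * B := by group
    _ = A * z * A⁻¹ * B * B := by rw [h2]; group
    _ = z * B * B := by rw [← h A]; group
    _ = z * (A⁻¹ * z) * (z⁻¹ * (A * B)) * B := by group
    _ = z * (z * A⁻¹) * (z⁻¹ * (z * B * A)) * B := by rw [← h1, h A⁻¹]
    _ = _ := by rw [pow_two]; group

theorem a6' (h : Core P) (e : PQ P ≃* alternatingGroup (Fin 6)) :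
    (∀ g ∈ P, trc g⁻¹ = trc g) ∨ (Fintype.card F % 3 = 1 ∧
      (∀ g g' : GL (Fin 3) F, (∀ x ∈ P, g * x * g⁻¹ ∈ P) → (∀ x ∈ P, g' * x * g'⁻¹ ∈ P) →
        g ∈ P ⊔ scalars (Fin 3) F ∨ g' ∈ P ⊔ scalars (Fin 3) F ∨ g * g' ∈ P ⊔ scalars (Fin 3) F) ∧
      ((5 : F) ≠ 0 → (Fintype.card F % 5 = 1 ∨ Fintype.card F % 5 = 4) ∧
        ∀ g : GL (Fin 3) F, (∀ x ∈ P, g * x * g⁻¹ ∈ P) → g ∈ P ⊔ scalars (Fin 3) F)) := by
  obtain ⟨π, hπ⟩ := exists_prj h e
  by_cases hz : ∀ z : P, π z = 1 → z = 1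
  · exact Or.inl fun g hg => hπ.real_of hz (x := ⟨g, hg⟩) (y := ⟨g, hg⟩⁻¹) (by rw [map_inv]; exact real6 _)
  push Not at hz
  obtain ⟨z, hz, hz1⟩ := hz
  obtain ⟨A, hA⟩ := hπ.surj a6
  obtain ⟨B, hB⟩ := hπ.surj b6
  have hAB : A * B ≠ B * A := fun c => hz1 (hπ.ker_trivial c (by
    rw [hA, hB]; exact idx_coprime ab6 a6_pow b6_pow a6_ne b6_not (m := 40) card6 (by norm_num)) hz)
  have hc : π ⁅A, B⁆ = 1 := by
    rw [map_commutatorElement, hA, hB]; exact commutatorElement_eq_one_iff_mul_comm.2 ab6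
  have m3 : ∀ {g : GL (Fin 3) F} {α : MulAut A6}, Ind π g α → IsThreeCycle (α a6).1 → g ∈ P ⊔ scalars (Fin 3) F :=
    fun {g α} hg h3 => by
      obtain ⟨σ, hσ⟩ := H26.exists_conj_of_three (by simp) α fun x hx => three_of_isConj
        (α.toMonoidHom.map_isConj (alternatingGroup.isThreeCycle_isConj (by simp) a6_three hx)) h3
      exact mem_of_perm hπ hc hAB (i := 0) (j := 1) (by decide) (hA ▸ flip6.1) (hB ▸ flip6.2) hg hσ
  have t3 : ∀ (α : MulAut A6) {s : A6}, s ^ 3 = 1 → s ≠ 1 → ¬ IsThreeCycle (α s).1 → IsConj (α s) (a6 * b6) :=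
    fun α s h1 h2 h3 => (three6 (by rw [← map_pow, h1, map_one]) (by simpa using h2)).resolve_left fun c =>
      h3 (three_of_isConj c.symm a6_three)
  refine Or.inr ⟨card_mod_three ((hπ.ker z).1 hz) (h.le z.2) fun c => hz1 (Subtype.ext c), fun g g' hg hg' => ?_,
    fun h5 => ?_⟩
  · obtain ⟨α, hα⟩ := hπ.exists_ind hg
    obtain ⟨β, hβ⟩ := hπ.exists_ind hg'
    by_cases h1 : IsThreeCycle (α a6).1
    · exact Or.inl (m3 hα h1)
    by_cases h2 : IsThreeCycle (β a6).1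
    · exact Or.inr (Or.inl (m3 hβ h2))
    refine Or.inr (Or.inr (m3 (hα.mul hβ) ?_))
    by_contra h3
    have h4 := t3 (α * β) a6_pow a6_ne h3
    have h5 := α.symm.toMonoidHom.map_isConj (h4.trans (t3 α a6_pow a6_ne h1).symm)
    exact h2 (three_of_isConj (by simpa using h5.symm) a6_three)
  · obtain ⟨X, hX, hX5⟩ := hπ.exists_lift f6_pow (by norm_num)
    have hX2 : (X ^ 2) ^ 5 = 1 := by rw [← pow_mul, mul_comm, pow_mul, hX5, one_pow]
    have hr : ∀ Y : P, Y ^ 5 = 1 → trc Y.1⁻¹ = trc Y.1 := fun Y hY =>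
      hπ.trc_isConj (y := Y⁻¹) hY (by rw [inv_pow, hY, inv_one]) (by norm_num) (by rw [map_inv]; exact real6 _)
    have h6 : X.1 ^ 5 = 1 := congrArg Subtype.val hX5
    obtain ⟨h7, h8⟩ := five_ne (h.le X.2) h6 (fun c => f6_ne (by rw [← hX, show X = 1 from Subtype.ext c, map_one]))
      (hr X hX5) h5
    refine ⟨?_, fun g hg => ?_⟩
    · have h9 := trc_pow_card X.1
      rw [pow_eq_pow_mod _ h6] at h9
      by_contra c
      obtain c | c | c : Fintype.card F % 5 = 0 ∨ Fintype.card F % 5 = 2 ∨ Fintype.card F % 5 = 3 := by omega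
      all_goals rw [c] at h9
      · exact h7 (by rw [← h9, pow_zero, trc_one])
      · exact h8 h9
      · refine h8 ((hr (X ^ 2) hX2).symm.trans (Eq.trans ?_ h9))
        rw [Subgroup.coe_pow, inv_eq_of_mul_eq_one_right (show X.1 ^ 2 * X.1 ^ 3 = 1 by rw [← pow_add]; exact h6)]
    · obtain ⟨α, hα⟩ := hπ.exists_ind hg
      refine m3 hα ?_
      by_contra h1
      obtain ⟨u, hu⟩ := isConj_iff.1 (t3 α a6_pow a6_ne h1)
      obtain ⟨u, rfl⟩ := hπ.surj u
      obtain ⟨β, hβ, b1⟩ : ∃ β, Ind π (u * g) β ∧ β a6 = a6 * b6 := ⟨_, (ind_inner π u).mul hα, hu⟩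
      rcases cent6 (s := β b6) (by rw [← b1, ← map_mul, ← map_mul, ab6]) (by rw [← map_pow, b6_pow, map_one])
        (by simpa using b6_ne) (fun c => ne6.1 (β.injective (c.trans b1.symm)))
        (fun c => ne6.2 (β.injective (by rw [c, map_inv, b1]))) (fun c => ab6_not (b1 ▸ three_of_isConj
          (β.toMonoidHom.map_isConj (alternatingGroup.isThreeCycle_isConj (by simp) b6_three a6_three)) c)) with b2 | b2
      · have h2 := swap5 (d := β c6) (by rw [← map_mul, c6_pow.1, map_one])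
          (by rw [← b1, ← map_mul, ← map_pow, c6_pow.2.1, map_one])
          (by rw [← b2, ← map_mul, ← map_pow, c6_pow.2.2, map_one])
        have h3 : β (a6 * b6 * c6) = a6 * b6 * (a6 * b6⁻¹) * β c6 := by rw [map_mul, map_mul, b1, b2]
        rw [← h3] at h2
        obtain ⟨Y, hY, hY5⟩ := hπ.exists_lift (s := β (a6 * b6 * c6)) (n := 5) (by rw [← map_pow, f6_pow, map_one])
          (by norm_num)
        exact h8 ((hπ.trc_isConj hX2 hY5 (by norm_num) (by rw [map_pow, hX, hY]; exact h2)).symm.trans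
          (hπ.trc_ind hβ hX5 hY5 (by norm_num) (by rw [hY, hX])))
      · have h2 := hπ.comm_ind hβ (x' := A * B) (y' := A⁻¹ * B) hc (by rw [map_mul, hA, hB, b1])
          (by rw [map_mul, map_inv, hA, hB, b2])
        rw [comm_sq (hπ.comm hc), pow_two, mul_eq_left] at h2
        exact hAB (commutatorElement_eq_one_iff_mul_comm.1 h2)

theorem a6_norm {H : Subgroup (GL (Fin 3) F)} (h : Core P) (hn : ∀ g ∈ H, ∀ x ∈ P, g * x * g⁻¹ ∈ P)
    (e : PQ P ≃* alternatingGroup (Fin 6)) :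
    (∀ g ∈ P, trc g⁻¹ = trc g) ∨ (Fintype.card F % 3 = 1 ∧ (H ≤ P ⊔ scalars (Fin 3) F ∨ ((5 : F) = 0 ∧
      (P ⊔ scalars (Fin 3) F).relIndex (H ⊔ P ⊔ scalars (Fin 3) F) = 2)) ∧
      ((5 : F) ≠ 0 → Fintype.card F % 5 = 1 ∨ Fintype.card F % 5 = 4)) := by
  refine (a6' h e).imp id fun ⟨h1, h2, h3⟩ => ⟨h1, ?_, fun c => (h3 c).1⟩
  by_cases h4 : H ≤ P ⊔ scalars (Fin 3) F
  · exact Or.inl h4
  obtain ⟨a, ha, ha'⟩ := SetLike.not_le_iff_exists.1 h4
  refine Or.inr ⟨by_contra fun c => ha' ((h3 c).2 a (hn a ha)), ?_⟩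
  have k : ∀ {K : Subgroup (GL (Fin 3) F)}, (∀ g ∈ K, ∀ x ∈ P, g * x * g⁻¹ ∈ P) → K ≤ normalizer (P : Set _) :=
    fun {K} hK g hg => mem_normalizer_iff.2 fun y => ⟨hK g hg y, fun hy => by
      simpa [mul_assoc] using hK g⁻¹ (K.inv_mem hg) _ hy⟩
  have hN : H ⊔ P ⊔ scalars (Fin 3) F ≤ normalizer (P : Set _) :=
    sup_le (sup_le (k hn) le_normalizer) (k fun g hg x hx => by rwa [scalars_comm hg, mul_inv_cancel_right])
  have hN' : ∀ g ∈ H ⊔ P ⊔ scalars (Fin 3) F, ∀ x ∈ P, g * x * g⁻¹ ∈ P := fun g hg x hx =>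
    (mem_normalizer_iff.1 (hN hg) x).1 hx
  refine index_eq_two_iff.2 ⟨⟨a, mem_sup_left (mem_sup_left ha)⟩, fun b => ?_⟩
  simp only [mem_subgroupOf, coe_mul]
  by_cases hb : b.1 ∈ P ⊔ scalars (Fin 3) F
  · exact Or.inr ⟨hb, fun c => ha' ((mul_mem_cancel_left hb).1 c)⟩
  · exact Or.inl ⟨((h2 b a (hN' _ b.2) (hn a ha)).resolve_left hb).resolve_left ha', hb⟩

theorem ch0 (X : Matrix (Fin 3) (Fin 3) F) (h1 : X.trace = 0) (h2 : (X * X).trace = 0) (h : (2 : F) ≠ 0) :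
    (3 : F) • (X * X * X) = (X * X * X).trace • (1 : Matrix (Fin 3) (Fin 3) F) := by
  have h3 := ch3 X
  have h4 := tr_sq X
  have h5 : X.adjugate.trace = 0 := (mul_eq_zero.1 (show 2 * X.adjugate.trace = 0 by
    rw [h1, h2] at h4; linear_combination h4)).resolve_left h
  rw [h1, h5, zero_smul, zero_smul, sub_zero, zero_add] at h3
  rw [h3, smul_smul, trace_smul, trace_one, Fintype.card_fin, smul_eq_mul, mul_comm]; norm_num

theorem a7' (h : Core P) (h5 : (5 : F) = 0) (e : PQ P ≃* alternatingGroup (Fin 7)) :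
    Fintype.card F % 3 = 1 ∧ ∀ g : GL (Fin 3) F, (∀ x ∈ P, g * x * g⁻¹ ∈ P) → g ∈ P ⊔ scalars (Fin 3) F := by
  obtain ⟨π, hπ⟩ := exists_prj h e
  obtain ⟨A, hA⟩ := hπ.surj a7
  obtain ⟨B, hB⟩ := hπ.surj b7
  have hc : π ⁅A, B⁆ = 1 := by
    rw [map_commutatorElement, hA, hB]; exact commutatorElement_eq_one_iff_mul_comm.2 ab7
  have hAB : A * B ≠ B * A := fun c => by
    have hz := fun z => hπ.ker_trivial (z := z) c (by
      rw [hA, hB]; exact idx_coprime ab7 a7_pow b7_pow a7_ne b7_not (m := 280) card7 (by norm_num))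
    have hA3 : A ^ 3 = 1 := hz _ (by rw [map_pow, hA, a7_pow])
    have hB3 : B ^ 3 = 1 := hz _ (by rw [map_pow, hB, b7_pow])
    have t : ∀ i j : ℕ, a7 ^ i * b7 ^ j ≠ 1 → (A.1.1 ^ i * B.1.1 ^ j).trace = 0 := fun i j hij =>
      trc_zero (h.le (A ^ i * B ^ j).2) (congrArg Subtype.val (show (A ^ i * B ^ j) ^ 3 = 1 by
        rw [(Commute.pow_pow c i j).mul_pow, ← pow_mul, ← pow_mul, mul_comm i, mul_comm j, pow_mul, pow_mul, hA3, hB3]
        simp)) fun s => hij (by rw [← hA, ← hB, ← map_pow, ← map_pow, ← map_mul]; exact (hπ.ker _).2 s)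
    obtain ⟨n1, n2, n3, n4, n5, n6, n7⟩ := ne7
    have t1 := t 1 0 (by simpa using n1)
    have t2 := t 0 1 (by simpa using n2)
    have t3 := t 1 1 (by simpa using n3)
    have t4 := t 2 0 (by simpa using n4)
    have t5 := t 0 2 (by simpa using n5)
    have t6 := t 2 1 (by simpa using n6)
    have t7 := t 1 2 (by simpa using n7)
    have a3 : A.1.1 ^ 3 = 1 := congrArg (fun x : P => x.1.1) hA3
    have b3 : B.1.1 ^ 3 = 1 := congrArg (fun x : P => x.1.1) hB3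
    have c' : Commute A.1.1 B.1.1 := congrArg (fun x : P => x.1.1) c
    generalize A.1.1 = X at *
    generalize B.1.1 = Y at *
    simp only [pow_one, pow_zero, mul_one, one_mul] at t1 t2 t3 t4 t5 t6 t7
    have h2 : (2 : F) ≠ 0 := fun s => one_ne_zero (show (1 : F) = 0 by linear_combination h5 - 2 * s)
    have h3 : (3 : F) ≠ 0 := fun s => one_ne_zero (show (1 : F) = 0 by linear_combination 2 * s - h5)
    have e2 : (X + Y) * (X + Y) = X ^ 2 + (X * Y + X * Y) + Y ^ 2 := by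
      rw [add_mul, mul_add, mul_add, ← c'.eq, pow_two, pow_two]; abel
    have e3 : (X + Y) * (X + Y) * (X + Y) = 1 + 1 + (3 : F) • (X ^ 2 * Y + X * Y ^ 2) := by
      have k1 : X * Y * X = X ^ 2 * Y := by rw [mul_assoc, ← c'.eq, pow_two, mul_assoc]
      have k2 : Y ^ 2 * X = X * Y ^ 2 := (c'.pow_right 2).eq.symm
      rw [e2, show (3 : F) = 1 + 1 + 1 by norm_num]
      simp only [add_mul, mul_add, add_smul, one_smul, k1, k2, ← pow_succ, a3, b3, mul_assoc X Y Y, ← pow_two]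
      abel
    have k := ch0 (X + Y) (by rw [trace_add, t1, t2, add_zero]) (by simp [e2, t3, t4, t5]) h2
    rw [e3, trace_add, trace_smul, trace_add (X ^ 2 * Y), t6, t7, trace_add, trace_one, Fintype.card_fin, smul_add,
      smul_smul] at k
    have k2 : X ^ 2 * Y + X * Y ^ 2 = 0 := by
      refine (smul_eq_zero.1 ?_).resolve_left (mul_ne_zero h3 h3)
      rw [← add_right_inj ((3 : F) • (1 + 1)), k, add_zero, smul_add, ← add_smul]; simp
    have k3 : X + Y = 0 := by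
      have k4 : X ^ 2 * Y ^ 2 * (X * Y) = 1 := by
        rw [(c'.symm.pow_left 2).mul_mul_mul_comm, ← pow_succ, ← pow_succ, a3, b3, mul_one]
      calc X + Y = X ^ 2 * Y ^ 2 * (X * Y * (X + Y)) := by rw [← mul_assoc, k4, one_mul]
        _ = 0 := by
          rw [mul_add, mul_assoc X Y X, ← c'.eq, ← mul_assoc, ← pow_two, mul_assoc X Y Y, ← pow_two, k2, mul_zero]
    rw [eq_neg_of_add_eq_zero_left k3, Odd.neg_pow (by decide), b3] at a3
    have := congrFun (congrFun a3 0) 0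
    simp only [Matrix.neg_apply, one_apply_eq] at this
    exact h2 (by linear_combination -this)
  refine ⟨card_mod_three ((hπ.ker _).1 hc) (h.le ⁅A, B⁆.2) fun c =>
    hAB (commutatorElement_eq_one_iff_mul_comm.1 (Subtype.ext c)), fun g hg => ?_⟩
  obtain ⟨α, hα⟩ := hπ.exists_ind hg
  obtain ⟨σ, hσ⟩ := GW.exists_conj_of_aut (by simp) (by simp) α
  exact mem_of_perm hπ hc hAB (i := 0) (j := 1) (by decide) (hA ▸ flip7.1) (hB ▸ flip7.2) hα hσ

theorem a7_norm {H : Subgroup (GL (Fin 3) F)} (h : Core P) (hn : ∀ g ∈ H, ∀ x ∈ P, g * x * g⁻¹ ∈ P)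
    (h5 : (5 : F) = 0) (e : PQ P ≃* alternatingGroup (Fin 7)) :
    Fintype.card F % 3 = 1 ∧ H ≤ P ⊔ scalars (Fin 3) F :=
  ⟨(a7' h h5 e).1, fun g hg => (a7' h h5 e).2 g (hn g hg)⟩

end Cfsg.Agent.MiX
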