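import Cfsg.Agent.H12.SmallRecog

/-! Computations in `SL₃(2)`. -/

set_option autoImplicit false
set_option linter.style.haveILetI false

namespace Cfsg.Agent.MiX

open Matrix Subgroup
open scoped MatrixGroups

abbrev M2 := Matrix (Fin 3) (Fin 3) (ZMod 2)

def g7 : SL(3, ZMod 2) := ⟨!![0, 0, 1; 1, 0, 1; 0, 1, 0], by decide +kernel⟩
def y2 : SL(3, ZMod 2) := ⟨!![1, 0, 0; 0, 0, 1; 0, 1, 0], by decide +kernel⟩

theorem l1 : ∀ s : M2, s.det = 1 → s ^ 7 = 1 ∨ ∃ u : M2, u * u = 1 ∧ u * s * (u * s) = 1 := by decide +kernel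

set_option synthInstance.maxSize 1000 in
theorem l2 : ∀ s : M2, s ^ 7 = 1 → s ≠ 1 → ∃ u : M2, u.det = 1 ∧ (u * s = g7.1 * u ∨ g7.1 * u * s = u) := by
  decide +kernel

theorem l3 : ∀ d : M2, d * d = 1 → (g7.1 * d) ^ 3 = 1 → ∃ k : Fin 7, g7.1 ^ k.1 * y2.1 = d * g7.1 ^ k.1 := by
  decide +kernel

theorem l4 : ∃ u : M2, u.det = 1 ∧ u * g7.1 = g7.1 ^ 2 * u := by decide +kernel

theorem l5 : ∀ s : M2, s.det = 1 → s * g7.1 = g7.1 * s → s * y2.1 = y2.1 * s → s = 1 := by decide +kernel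

theorem card32 : Nat.card SL(3, ZMod 2) = 168 := by
  rw [Nat.card_eq_fintype_card]; decide +kernel

theorem g7_pow : g7 ^ 7 = 1 := Subtype.ext (by decide +kernel)
theorem g7_ne : g7 ≠ 1 := fun e => absurd (congrArg Subtype.val e) (by decide +kernel)
theorem y2_pow : y2 ^ 2 = 1 := Subtype.ext (by decide +kernel)
theorem y2_ne : y2 ≠ 1 := fun e => absurd (congrArg Subtype.val e) (by decide +kernel)
theorem gy_pow : (g7 * y2) ^ 3 = 1 := Subtype.ext (by decide +kernel)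
theorem gy_ne : g7 * y2 ≠ 1 := fun e => absurd (congrArg Subtype.val e) (by decide +kernel)

theorem real32 (s : SL(3, ZMod 2)) : s ^ 7 = 1 ∨ IsConj s s⁻¹ := by
  rcases l1 s.1 s.2 with h | ⟨u, h1, h2⟩
  · exact Or.inl (Subtype.ext h)
  · have h3 : u.det = 1 := by
      have := congrArg Matrix.det h1
      rw [det_mul, Matrix.det_one] at this
      revert this; generalize u.det = a; revert a; decide
    let v : SL(3, ZMod 2) := ⟨u, h3⟩
    have h4 : v * v = 1 := Subtype.ext h1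
    have h5 : v * s * (v * s) = 1 := Subtype.ext h2
    refine Or.inr (isConj_iff.2 ⟨v, ?_⟩)
    rw [← eq_inv_of_mul_eq_one_right h4, eq_inv_iff_mul_eq_one, mul_assoc, h5]

theorem conj7 {s : SL(3, ZMod 2)} (h : s ^ 7 = 1) (h1 : s ≠ 1) : IsConj s g7 ∨ IsConj s g7⁻¹ := by
  obtain ⟨u, h2, h3 | h3⟩ := l2 s.1 (congrArg Subtype.val h) fun e => h1 (Subtype.ext e)
  · exact Or.inl (isConj_iff.2 ⟨⟨u, h2⟩, mul_inv_eq_iff_eq_mul.2 (Subtype.ext h3)⟩)
  · let v : SL(3, ZMod 2) := ⟨u, h2⟩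
    have h4 : g7 * v * s = v := Subtype.ext h3
    exact Or.inr (isConj_iff.2 ⟨v, eq_inv_of_mul_eq_one_right (by
      rw [← mul_assoc, ← mul_assoc, h4, mul_inv_cancel])⟩)

theorem conj_sq (k : ℕ) : IsConj (g7 ^ k) (g7 ^ (2 * k)) := by
  obtain ⟨u, h1, h2⟩ := l4
  have : IsConj g7 (g7 ^ 2) := isConj_iff.2 ⟨⟨u, h1⟩, mul_inv_eq_iff_eq_mul.2 (Subtype.ext h2)⟩
  rw [pow_mul]; exact this.pow k

theorem gen32 [IsSimpleGroup SL(3, ZMod 2)] {E : Subgroup SL(3, ZMod 2)} (h1 : g7 ∈ E) (h2 : y2 ∈ E) : E = ⊤ := by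
  haveI : Fact (Nat.Prime 3) := ⟨Nat.prime_three⟩
  haveI : Fact (Nat.Prime 7) := ⟨by norm_num⟩
  have a7 := orderOf_eq_prime g7_pow g7_ne ▸ orderOf_dvd_natCard E h1
  have a2 := orderOf_eq_prime y2_pow y2_ne ▸ orderOf_dvd_natCard E h2
  have a3 := orderOf_eq_prime gy_pow gy_ne ▸ orderOf_dvd_natCard E (mul_mem h1 h2)
  have a4 := E.card_mul_index
  have a5 := H12.index_normalCore_dvd E
  rcases E.normalCore_normal.eq_bot_or_eq_top with h | h
  · rw [h, index_bot, card32] at a5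
    rw [card32] at a4
    obtain ⟨c, hc⟩ : 42 ∣ Nat.card E := by omega
    rw [hc] at a4
    have a6 : E.index ∣ 4 := ⟨c, by nlinarith⟩
    have := Nat.le_of_dvd (Nat.factorial_pos _) (a5.trans (Nat.factorial_dvd_factorial (Nat.le_of_dvd (by norm_num) a6)))
    exact absurd this (by decide)
  · exact top_le_iff.1 (h ▸ E.normalCore_le)

theorem psl32 : Nonempty (ProjectiveSpecialLinearGroup (Fin 3) (ZMod 2) ≃* SL(3, ZMod 2)) := by
  have hc : center SL(3, ZMod 2) = ⊥ := eq_bot_iff.2 fun s hs => Subtype.ext (l5 s.1 s.2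
    (congrArg Subtype.val (mem_center_iff.1 hs g7)).symm (congrArg Subtype.val (mem_center_iff.1 hs y2)).symm)
  exact ⟨(QuotientGroup.quotientMulEquivOfEq hc).trans QuotientGroup.quotientBot⟩

theorem conj_y2 {d : SL(3, ZMod 2)} (h1 : d * d = 1) (h2 : (g7 * d) ^ 3 = 1) :
    ∃ k : ℕ, d = g7 ^ k * y2 * (g7 ^ k)⁻¹ := by
  obtain ⟨k, hk⟩ := l3 d.1 (congrArg Subtype.val h1) (congrArg Subtype.val h2)
  exact ⟨k.1, eq_mul_inv_iff_mul_eq.2 (Subtype.ext hk.symm)⟩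

attribute [irreducible] g7 y2

end Cfsg.Agent.MiX
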