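import Cfsg.Agent.MiX.Base
import Cfsg.Agent.MiX.L32c

/-! The normaliser of `L₃(2)` in `GL₃(F)`. -/

set_option autoImplicit false
set_option linter.style.haveILetI false

namespace Cfsg.Agent.MiX

open Cfsg.Geo Matrix Subgroup Cfsg.Agent.H18 Cfsg.Agent.H18.Mi
open scoped MatrixGroups

theorem isConj_inv {G : Type*} [Group G] {a b : G} (h : IsConj a b) : IsConj a⁻¹ b⁻¹ := by
  obtain ⟨c, rfl⟩ := isConj_iff.1 h
  exact isConj_iff.2 ⟨c, by group⟩

variable {F : Type*} [Field F] [Fintype F] {P : Subgroup (GL (Fin 3) F)}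

theorem l32_inj {π : P →* SL(3, ZMod 2)} (h : Prj P π) {z : P} (hz : π z = 1) : z = 1 := by
  haveI : Fact (Nat.Prime 3) := ⟨Nat.prime_three⟩
  obtain ⟨A, hA⟩ := h.surj (g7 * y2)
  refine h.ker_trivial (A := A) (B := A) rfl ?_ hz
  rw [Set.pair_eq_singleton, ← zpowers_eq_closure, hA]
  have := (zpowers (g7 * y2)).card_mul_index
  rw [Nat.card_zpowers, orderOf_eq_prime gy_pow gy_ne, card32] at this
  rw [show (zpowers (g7 * y2)).index = 56 by omega]; norm_num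

theorem l32' (h : Core P) (e : PQ P ≃* ProjectiveSpecialLinearGroup (Fin 3) (ZMod 2)) :
    (∀ g ∈ P, trc g⁻¹ = trc g) ∨ (Fintype.card F ^ 3 % 7 = 1 ∧
      ∀ g : GL (Fin 3) F, (∀ x ∈ P, g * x * g⁻¹ ∈ P) → g ∈ P ⊔ scalars (Fin 3) F) := by
  obtain ⟨e'⟩ := psl32
  obtain ⟨π, hπ⟩ := exists_prj h (e.trans e')
  haveI : IsSimpleGroup SL(3, ZMod 2) := haveI := h.simple; (e.trans e').symm.isSimpleGroup
  have hz := fun z => l32_inj hπ (z := z)
  have hr := fun x y => hπ.real_of hz (x := x) (y := y)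
  obtain ⟨G, hG⟩ := hπ.surj g7
  by_cases h1 : trc G.1⁻¹ = trc G.1
  · refine Or.inl fun g hg => ?_
    rcases real32 (π ⟨g, hg⟩) with h2 | h2
    · by_cases h3 : π ⟨g, hg⟩ = 1
      · rw [show g = 1 from congrArg Subtype.val (hz _ h3), inv_one]
      · rcases conj7 h2 h3 with h4 | h4
        · exact (hr ⟨g, hg⟩⁻¹ G⁻¹ (by simpa [hG] using isConj_inv h4)).symm.trans
            (h1.trans (hr ⟨g, hg⟩ G (hG ▸ h4)))
        · exact (hr ⟨g, hg⟩⁻¹ G (by simpa [hG] using isConj_inv h4)).symm.trans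
            (h1.symm.trans (hr ⟨g, hg⟩ G⁻¹ (by simpa [hG] using h4)))
    · exact hr ⟨g, hg⟩ ⟨g, hg⟩⁻¹ (by simpa using h2)
  refine Or.inr ⟨?_, fun g hg => ?_⟩
  · have h2 : ∀ k, IsConj (g7 ^ k) (g7 ^ (k % 7)) := fun k => by
      rw [pow_eq_pow_mod k g7_pow]
    have h3 : ∀ k, Fintype.card F % 7 = k → ¬ IsConj (g7 ^ k) g7⁻¹ := fun k hk c => h1 (by
      rw [← trc_pow_card G.1]
      exact hr (G ^ Fintype.card F) G⁻¹ (by rw [map_pow, map_inv, hG]; exact (h2 _).trans (hk ▸ c)))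
    have h4 : g7⁻¹ = g7 ^ 6 := inv_eq_of_mul_eq_one_right (by rw [← pow_succ', g7_pow])
    have h5 : Fintype.card F % 7 ≠ 0 := fun c => h1 (by
      have : G ^ Fintype.card F = 1 := hz _ (by rw [map_pow, hG, pow_eq_pow_mod _ g7_pow, c, pow_zero])
      have : G.1 ^ Fintype.card F = 1 := congrArg Subtype.val this
      rw [← trc_pow_card G.1, ← trc_pow_card G.1⁻¹, inv_pow, this, inv_one])
    rw [h4] at h3
    have h6 : _ ≠ _ := fun c => h3 3 c (conj_sq 3)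
    have h7 : _ ≠ _ := fun c => h3 5 c ((conj_sq 5).trans ((conj_sq 10).trans (h2 20)))
    have h8 : _ ≠ _ := fun c => h3 6 c (IsConj.refl _)
    rw [Nat.pow_mod]
    obtain c | c | c : Fintype.card F % 7 = 1 ∨ Fintype.card F % 7 = 2 ∨ Fintype.card F % 7 = 4 := by omega
    all_goals rw [c]
  · obtain ⟨α, hα⟩ := hπ.exists_ind hg
    have hG7 : G ^ 7 = 1 := hz _ (by rw [map_pow, hG, g7_pow])
    rcases conj7 (s := α g7) (by rw [← map_pow, g7_pow, map_one]) (by simpa using g7_ne) with h2 | h2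
    · obtain ⟨u, hu⟩ := isConj_iff.1 h2
      let β := MulAut.conj u * α
      have b1 : β g7 = g7 := hu
      obtain ⟨k, b2⟩ := conj_y2 (d := β y2) (by rw [← map_mul, ← pow_two, y2_pow, map_one]) (by
        have := congrArg β gy_pow
        rwa [map_pow, map_mul, b1, map_one] at this)
      have := gen32 (E := β.toMonoidHom.eqLocus (MulAut.conj (g7 ^ k)).toMonoidHom)
        (b1.trans (eq_mul_inv_iff_mul_eq.2 ((Commute.refl g7).pow_right k).eq)) b2
      refine hπ.mem_of_inner hα (s := u⁻¹ * g7 ^ k) fun x => ?_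
      have h3 : u * α x * u⁻¹ = g7 ^ k * x * (g7 ^ k)⁻¹ := this.ge (mem_top x)
      calc α x = u⁻¹ * (u * α x * u⁻¹) * u := by group
        _ = _ := by rw [h3]; group
    · obtain ⟨u, hu⟩ := isConj_iff.1 h2
      obtain ⟨u, rfl⟩ := hπ.surj u
      exact absurd (hπ.trc_ind ((ind_inner π u).mul hα) (y := G⁻¹) hG7 (by rw [inv_pow, hG7, inv_one]) (by norm_num)
        (by rw [map_inv, hG]; exact hu.symm)) h1

theorem l32 {H : Subgroup (GL (Fin 3) F)} (h : Core P) (hn : ∀ g ∈ H, ∀ x ∈ P, g * x * g⁻¹ ∈ P)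
    (e : PQ P ≃* ProjectiveSpecialLinearGroup (Fin 3) (ZMod 2)) :
    (∀ g ∈ P, trc g⁻¹ = trc g) ∨ (Fintype.card F ^ 3 % 7 = 1 ∧ H ≤ P ⊔ scalars (Fin 3) F) :=
  (l32' h e).imp id fun c => ⟨c.1, fun g hg => c.2 g (hn g hg)⟩

end Cfsg.Agent.MiX
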