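import Cfsg.Agent.H18.Mi0
import Cfsg.Agent.H18.Master

/-! Normalisers of quasisimple subgroups of `SL₃(F)`: general tools. -/

set_option autoImplicit false
set_option linter.style.haveILetI false

namespace Cfsg.Agent.MiX

open Cfsg.Geo Matrix Subgroup Cfsg.Agent.H18 Cfsg.Agent.H18.Mi
open scoped commutatorElement

variable {F : Type*} [Field F]

theorem ch3 (X : Matrix (Fin 3) (Fin 3) F) :
    X * X * X = X.trace • (X * X) - X.adjugate.trace • X + X.det • (1 : Matrix (Fin 3) (Fin 3) F) := by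
  ext i j
  fin_cases i <;> fin_cases j <;>
    simp [Matrix.adjugate_fin_three, Matrix.det_fin_three, Matrix.trace_fin_three, Matrix.mul_apply,
      Fin.sum_univ_three, Matrix.one_apply] <;> ring

theorem tr_sq (X : Matrix (Fin 3) (Fin 3) F) : (X * X).trace = X.trace ^ 2 - 2 * X.adjugate.trace := by
  simp [Matrix.adjugate_fin_three, Matrix.trace_fin_three, Matrix.mul_apply, Fin.sum_univ_three]
  ring

theorem det_one {g : GL (Fin 3) F} (hg : g ∈ specialLinear (Fin 3) F) : (g : Matrix (Fin 3) (Fin 3) F).det = 1 :=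
  congrArg Units.val (MonoidHom.mem_ker.1 hg)

theorem adj_eq {g : GL (Fin 3) F} (hg : g ∈ specialLinear (Fin 3) F) :
    (g : Matrix (Fin 3) (Fin 3) F).adjugate = ((g⁻¹ : GL (Fin 3) F) : Matrix (Fin 3) (Fin 3) F) := by
  rw [Matrix.coe_units_inv, Matrix.inv_def, det_one hg, Ring.inverse_one, one_smul]

theorem trc_sq {g : GL (Fin 3) F} (hg : g ∈ specialLinear (Fin 3) F) : trc (g ^ 2) = trc g ^ 2 - 2 * trc g⁻¹ := by
  rw [trc, pow_two, Units.val_mul, tr_sq, adj_eq hg]; rfl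

theorem ch {g : GL (Fin 3) F} (hg : g ∈ specialLinear (Fin 3) F) :
    g.1 * g.1 * g.1 = trc g • (g.1 * g.1) - trc g⁻¹ • g.1 + 1 := by
  rw [ch3, adj_eq hg, det_one hg, one_smul]; rfl

theorem trc_conj (g x : GL (Fin 3) F) : trc (g * x * g⁻¹) = trc x := by
  rw [trc, ← cj_coe, trace_cj]; rfl

theorem trc_pow_card [Fintype F] (g : GL (Fin 3) F) : trc (g ^ Fintype.card F) = trc g := by
  rw [trc, Units.val_pow_eq_pow_val, FiniteField.trace_pow_card, FiniteField.pow_card]; rfl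

theorem trc_one : trc (1 : GL (Fin 3) F) = 3 := by simp [trc]

theorem cube_of_scalar {z : GL (Fin 3) F} (hz : z ∈ scalars (Fin 3) F) (h : z ∈ specialLinear (Fin 3) F) :
    z ^ 3 = 1 := by
  obtain ⟨c, hc⟩ := (mem_scalars_iff z).1 hz
  have := det_one h
  rw [hc, Matrix.det_smul, Matrix.det_one, mul_one, Fintype.card_fin] at this
  ext1
  rw [Units.val_pow_eq_pow_val, hc, smul_pow, this, one_pow, one_smul, Units.val_one]

theorem card_mod_three [Fintype F] {z : GL (Fin 3) F} (hz : z ∈ scalars (Fin 3) F) (h : z ∈ specialLinear (Fin 3) F)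
    (h1 : z ≠ 1) : Fintype.card F % 3 = 1 := by
  obtain ⟨c, hc⟩ := (mem_scalars_iff z).1 hz
  have h2 := det_one h
  rw [hc, Matrix.det_smul, Matrix.det_one, mul_one, Fintype.card_fin] at h2
  have h3 : c ≠ 1 := fun e => h1 (Units.ext (by rw [hc, e]; simp))
  haveI : Fact (Nat.Prime 3) := ⟨Nat.prime_three⟩
  have h4 : orderOf c = 3 := orderOf_eq_prime (Units.ext (by simpa using h2)) h3
  classical
  have h5 := orderOf_dvd_card (x := c)
  rw [h4, Fintype.card_units] at h5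
  have := Fintype.one_lt_card (α := F)
  omega

/-- an element of order three has trace zero unless scalar -/
theorem trc_zero {g : GL (Fin 3) F} (hg : g ∈ specialLinear (Fin 3) F) (h3 : g ^ 3 = 1)
    (hs : g ∉ scalars (Fin 3) F) : trc g = 0 := by
  by_contra h0
  have h1 := ch hg
  have h2 : g.1 * g.1 * g.1 = 1 := by
    have := congrArg Units.val h3
    rwa [pow_succ, pow_two] at this
  rw [h2] at h1
  have h4 : trc g • (g.1 * g.1) = trc g⁻¹ • g.1 := by
    rw [← sub_eq_zero]; exact left_eq_add.1 (h1.trans (add_comm _ _))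
  have h5 := congrArg (· * (g⁻¹ : GL (Fin 3) F).1) h4
  simp only [Matrix.smul_mul, Matrix.mul_assoc, Units.mul_inv, Matrix.mul_one] at h5
  refine hs (mem_scalars_of_eq_smul (c := (trc g)⁻¹ * trc g⁻¹) ?_)
  rw [mul_smul, ← h5, smul_smul, inv_mul_cancel₀ h0, one_smul]

/-- a real element of order five -/
theorem five_ne {g : GL (Fin 3) F} (hg : g ∈ specialLinear (Fin 3) F) (h5 : g ^ 5 = 1) (h1 : g ≠ 1)
    (hr : trc g⁻¹ = trc g) (h : (5 : F) ≠ 0) : trc g ≠ 3 ∧ trc (g ^ 2) ≠ trc g := by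
  have h2 := ch hg
  have h3 : trc g ≠ 3 := fun e => by
    rw [hr, e] at h2
    have h4 : g.1 ^ 5 = 1 := by rw [← Units.val_pow_eq_pow_val, h5, Units.val_one]
    obtain ⟨N, hN⟩ : ∃ N, g.1 = N + 1 := ⟨g.1 - 1, by simp⟩
    rw [hN] at h2 h4
    have h6 : N * N * N = 0 := by
      have e3 : ∀ X : Matrix (Fin 3) (Fin 3) F, (3 : F) • X = X + X + X := fun X => by
        rw [show (3 : F) = 1 + 1 + 1 by norm_num, add_smul, add_smul, one_smul]
      rw [e3, e3, ← sub_eq_zero] at h2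
      rw [← h2]; noncomm_ring
    have h7 : (5 : F) • N + (10 : F) • (N * N) = 0 := by
      have e5 : ∀ X : Matrix (Fin 3) (Fin 3) F, (5 : F) • X = X + X + X + X + X := fun X => by
        rw [show (5 : F) = 1 + 1 + 1 + 1 + 1 by norm_num]; simp only [add_smul, one_smul]
      have : (N + 1) ^ 5 = 1 + (N + N + N + N + N) + ((N * N + N * N) + (N * N + N * N) + (N * N + N * N) +
        (N * N + N * N) + (N * N + N * N)) + N * N * N * (N * N + 5 * N + 10) := by noncomm_ring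
      rw [h4, h6, zero_mul, add_zero, add_assoc, left_eq_add, ← e5, ← e5] at this
      rw [← this, show (10 : F) = 5 * 2 by norm_num, mul_smul, two_smul]
    have h8 : N * N = 0 := by
      have := congrArg (· * N) h7
      simp only [add_mul, Matrix.smul_mul, h6, smul_zero, add_zero, zero_mul] at this
      exact (smul_eq_zero.1 this).resolve_left h
    rw [h8, smul_zero, add_zero] at h7
    exact h1 (Units.ext (by rw [hN, (smul_eq_zero.1 h7).resolve_left h, zero_add, Units.val_one]))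
  refine ⟨h3, fun e => ?_⟩
  rw [trc_sq hg, hr] at e
  have h4 : trc g = 0 := (mul_eq_zero.1 (show trc g * (trc g - 3) = 0 by linear_combination e)).resolve_right
    (sub_ne_zero.2 h3)
  rw [hr, h4, zero_smul, zero_smul, sub_zero, zero_add] at h2
  have h6 : g ^ 3 = 1 := Units.ext (by rw [pow_succ, pow_two]; exact h2)
  exact h1 (by rw [← pow_gcd_eq_one.2 ⟨h5, h6⟩]; simp)

theorem nine_dvd {G : Type*} [Group G] [Finite G] {a b : G} (hab : Commute a b) (ha : a ^ 3 = 1) (hb : b ^ 3 = 1)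
    (h1 : a ≠ 1) (h2 : b ∉ zpowers a) : 9 ∣ Nat.card (closure ({a, b} : Set G)) := by
  haveI : Fact (Nat.Prime 3) := ⟨Nat.prime_three⟩
  have k : ∀ x ∈ closure ({a, b} : Set G), ∃ i j : ℤ, x = a ^ i * b ^ j := fun x hx => by
    induction hx using closure_induction with
    | mem x hx => rcases hx with rfl | rfl; exacts [⟨1, 0, by simp⟩, ⟨0, 1, by simp⟩]
    | one => exact ⟨0, 0, by simp⟩
    | mul x y _ _ hx hy =>
      obtain ⟨i, j, rfl⟩ := hx
      obtain ⟨k, l, rfl⟩ := hy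
      exact ⟨i + k, j + l, by rw [_root_.zpow_add, _root_.zpow_add, (hab.symm.zpow_zpow j k).mul_mul_mul_comm]⟩
    | inv x _ hx =>
      obtain ⟨i, j, rfl⟩ := hx
      exact ⟨-i, -j, by rw [_root_.mul_inv_rev, ← _root_.zpow_neg, ← _root_.zpow_neg, (hab.zpow_zpow _ _).eq]⟩
  obtain ⟨n, hn⟩ := IsPGroup.iff_card.1 (show IsPGroup 3 (closure ({a, b} : Set G)) from fun x => ⟨1, by
    obtain ⟨i, j, e⟩ := k x x.2
    ext
    rw [pow_one, coe_pow, e, (hab.zpow_zpow i j).mul_pow, ← zpow_natCast, ← zpow_natCast, ← _root_.zpow_mul,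
      ← _root_.zpow_mul, mul_comm i, mul_comm j, _root_.zpow_mul, _root_.zpow_mul, zpow_natCast, zpow_natCast, ha, hb]
    simp⟩)
  have h3 : zpowers a ≤ closure ({a, b} : Set G) := zpowers_le_of_mem (subset_closure (by simp))
  by_contra h4
  refine h2 (eq_of_le_of_card_ge h3 ?_ ▸ subset_closure (by simp))
  rw [Nat.card_zpowers, orderOf_eq_prime ha h1, hn]
  rw [hn] at h4
  rcases n with _ | _ | n
  exacts [by norm_num, by norm_num, absurd ⟨3 ^ n, by ring⟩ h4]

/-- the projection onto the simple quotient -/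
structure Prj (P : Subgroup (GL (Fin 3) F)) {S : Type*} [Group S] (π : P →* S) : Prop where
  core : Core P
  surj : Function.Surjective π
  ker : ∀ x : P, π x = 1 ↔ (x : GL (Fin 3) F) ∈ scalars (Fin 3) F

theorem exists_prj {P : Subgroup (GL (Fin 3) F)} (h : Core P) {S : Type*} [Group S] (e : PQ P ≃* S) :
    ∃ π : P →* S, Prj P π :=
  ⟨e.toMonoidHom.comp (QuotientGroup.mk' _), h, e.surjective.comp (QuotientGroup.mk'_surjective _), fun x => by
    simp [mem_subgroupOf]⟩

/-- `g` normalises `P` and induces `α` -/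
def Ind {P : Subgroup (GL (Fin 3) F)} {S : Type*} [Group S] (π : P →* S) (g : GL (Fin 3) F) (α : MulAut S) : Prop :=
  ∀ x : P, ∃ y : P, (y : GL (Fin 3) F) = g * x * g⁻¹ ∧ π y = α (π x)

theorem Ind.mul {P : Subgroup (GL (Fin 3) F)} {S : Type*} [Group S] {π : P →* S} {g g' : GL (Fin 3) F}
    {α α' : MulAut S} (h : Ind π g α) (h' : Ind π g' α') : Ind π (g * g') (α * α') := fun x => by
  obtain ⟨y, h1, h2⟩ := h' x
  obtain ⟨z, h3, h4⟩ := h y
  exact ⟨z, by rw [h3, h1]; group, by rw [h4, h2]; rfl⟩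

theorem ind_inner {P : Subgroup (GL (Fin 3) F)} {S : Type*} [Group S] (π : P →* S) (y : P) :
    Ind π y (MulAut.conj (π y)) := fun x => ⟨y * x * y⁻¹, rfl, by simp⟩

namespace Prj

variable {P : Subgroup (GL (Fin 3) F)} {S : Type*} [Group S] {π : P →* S} (h : Prj P π)
include h

theorem cube {z : P} (hz : π z = 1) : z ^ 3 = 1 :=
  Subtype.ext (cube_of_scalar ((h.ker z).1 hz) (h.core.le z.2))

theorem comm {z : P} (hz : π z = 1) (x : P) : z * x = x * z := Subtype.ext (scalars_comm ((h.ker z).1 hz) _)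

theorem exists_ind [Finite F] {g : GL (Fin 3) F} (hg : ∀ x ∈ P, g * x * g⁻¹ ∈ P) : ∃ α, Ind π g α := by
  let c : P →* P := ((MulAut.conj g).toMonoidHom.comp P.subtype).codRestrict P fun x => hg x x.2
  have hc : Function.Surjective c := Finite.surjective_of_injective fun a b e =>
    Subtype.ext ((MulAut.conj g).injective (congrArg Subtype.val e))
  haveI : Finite S := Finite.of_surjective _ h.surj
  let α := π.liftOfRightInverse _ (Function.rightInverse_surjInv h.surj) ⟨π.comp c, fun x hx =>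
    (h.ker _).2 (scalars_normal.conj_mem _ ((h.ker x).1 hx) g)⟩
  have hα : ∀ x, α (π x) = π (c x) := fun x => MonoidHom.liftOfRightInverse_comp_apply ..
  have hs : Function.Surjective α := fun s => by
    obtain ⟨x, rfl⟩ := (h.surj.comp hc) s
    exact ⟨π x, hα x⟩
  exact ⟨MulEquiv.ofBijective α ⟨Finite.injective_iff_surjective.2 hs, hs⟩, fun x => ⟨c x, rfl, (hα x).symm⟩⟩

theorem mem_of_inner [Finite F] {g : GL (Fin 3) F} {α : MulAut S} (hg : Ind π g α) {s : S}
    (hs : ∀ x, α x = s * x * s⁻¹) : g ∈ P ⊔ scalars (Fin 3) F := by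
  obtain ⟨y, rfl⟩ := h.surj s
  have h1 := (ind_inner π y⁻¹).mul hg
  have h2 : (y⁻¹ : P) * g ∈ scalars (Fin 3) F := mem_scalars_of_commute h.core.span fun x hx =>
    commute_commutator (T := P) (fun x hx => by
      obtain ⟨z, h3, h4⟩ := h1 ⟨x, hx⟩
      rw [← h3]
      exact (h.ker (z * ⟨x, hx⟩⁻¹)).1 (by rw [map_mul, h4]; simp [hs, mul_assoc])) x (h.core.perfect.symm ▸ hx)
  have := mul_mem (mem_sup_left y.2) (mem_sup_right h2 : _ ∈ P ⊔ scalars (Fin 3) F)
  simpa using this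

theorem exists_lift {s : S} {n : ℕ} (hn : s ^ n = 1) (h3 : n.Coprime 3) : ∃ x : P, π x = s ∧ x ^ n = 1 := by
  obtain ⟨x, rfl⟩ := h.surj s
  have h1 : π (x ^ n) = 1 := by rw [map_pow, hn]
  have h2 := h.cube h1
  obtain h4 | h4 : n % 3 = 1 ∨ n % 3 = 2 := by
    have : ¬ 3 ∣ n := fun e => by have := Nat.Coprime.eq_one_of_dvd h3.symm e; omega
    omega
  all_goals obtain ⟨k, hk⟩ : ∃ k, n = 3 * k + n % 3 := ⟨n / 3, by omega⟩
  · refine ⟨x * (x ^ n) ^ 2, by rw [map_mul, map_pow, h1]; simp, ?_⟩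
    rw [Commute.mul_pow (by simp), ← pow_mul (x ^ n), ← pow_succ', show 2 * n + 1 = 3 * (2 * k + 1) by omega, pow_mul, h2,
      one_pow]
  · refine ⟨x * x ^ n, by rw [map_mul, h1]; simp, ?_⟩
    rw [Commute.mul_pow (by simp), ← pow_succ', show n + 1 = 3 * (k + 1) by omega, pow_mul, h2, one_pow]

theorem lift_unique {x y : P} {n : ℕ} (hx : x ^ n = 1) (hy : y ^ n = 1) (h3 : n.Coprime 3) (e : π x = π y) : x = y := by
  have h1 : π (x * y⁻¹) = 1 := by simp [e]
  have h2 : (x * y⁻¹) ^ n = 1 := by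
    have : Commute (x * y⁻¹) y := h.comm h1 y
    have h4 := this.mul_pow n
    rwa [inv_mul_cancel_right, hx, hy, mul_one, eq_comm] at h4
  have := pow_gcd_eq_one.2 ⟨h2, h.cube h1⟩
  rwa [h3, pow_one, mul_inv_eq_one] at this

theorem trc_ind {g : GL (Fin 3) F} {α : MulAut S} (hg : Ind π g α) {x y : P} {n : ℕ} (hx : x ^ n = 1)
    (hy : y ^ n = 1) (h3 : n.Coprime 3) (e : π y = α (π x)) : trc y.1 = trc x.1 := by
  obtain ⟨z, h1, h2⟩ := hg x
  rw [h.lift_unique hy (Subtype.ext (by rw [coe_pow, h1, conj_pow, ← coe_pow, hx]; simp)) h3 (e.trans h2.symm), h1,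
    trc_conj]

theorem trc_isConj {x y : P} {n : ℕ} (hx : x ^ n = 1) (hy : y ^ n = 1) (h3 : n.Coprime 3) (e : IsConj (π x) (π y)) :
    trc y.1 = trc x.1 := by
  obtain ⟨s, hs⟩ := isConj_iff.1 e
  obtain ⟨u, rfl⟩ := h.surj s
  exact h.trc_ind (ind_inner π u) hx hy h3 hs.symm

theorem comm_congr {x y x' y' : P} (e1 : π x = π x') (e2 : π y = π y') : ⁅x, y⁆ = ⁅x', y'⁆ := by
  obtain ⟨z, rfl⟩ : ∃ z, x = z * x' := ⟨x * x'⁻¹, by simp⟩
  obtain ⟨w, rfl⟩ : ∃ w, y = w * y' := ⟨y * y'⁻¹, by simp⟩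
  have h1 := h.comm (z := z) (by simpa using e1)
  have h2 := h.comm (z := w) (by simpa using e2)
  calc _ = z * (x' * w * y' * x'⁻¹) * z⁻¹ * y'⁻¹ * w⁻¹ := by rw [commutatorElement_def]; group
    _ = w * (x' * y' * x'⁻¹ * y'⁻¹) * w⁻¹ := by rw [h1, ← h2 x']; group
    _ = _ := by rw [h2, commutatorElement_def]; group

theorem comm_ind {g : GL (Fin 3) F} {α : MulAut S} (hg : Ind π g α) {x y x' y' : P} (hc : π ⁅x, y⁆ = 1)
    (e1 : π x' = α (π x)) (e2 : π y' = α (π y)) : ⁅x', y'⁆ = ⁅x, y⁆ := by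
  obtain ⟨a, h1, h2⟩ := hg x
  obtain ⟨b, h3, h4⟩ := hg y
  rw [h.comm_congr (e1.trans h2.symm) (e2.trans h4.symm)]
  ext1
  calc _ = g * (⁅x, y⁆ : P) * g⁻¹ := by simp only [commutatorElement_def, coe_mul, coe_inv, h1, h3]; group
    _ = _ := by rw [← scalars_comm ((h.ker _).1 hc), mul_inv_cancel_right]

/-- transfer: an abelian Sylow `3`-subgroup kills the centre -/
theorem ker_trivial [Finite F] {A B : P} (hAB : A * B = B * A)
    (hi : (closure ({π A, π B} : Set S)).index.Coprime 3) {z : P} (hz : π z = 1) : z = 1 := by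
  let R := (closure ({π A, π B} : Set S)).comap π
  have hR : ∀ x ∈ R, ∀ y ∈ R, ⁅x, y⁆ = 1 := fun x hx y hy => by
    have e : closure ({π A, π B} : Set S) = (closure ({A, B} : Set P)).map π := by
      rw [MonoidHom.map_closure, Set.image_pair]
    obtain ⟨x', h1, h2⟩ := e.le hx
    obtain ⟨y', h3, h4⟩ := e.le hy
    rw [← h.comm_congr h2 h4, commutatorElement_eq_one_iff_mul_comm]
    refine closure_induction₂ (p := fun a b _ _ => Commute a b) ?_ (fun _ _ => Commute.one_left _)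
      (fun _ _ => Commute.one_right _) (fun _ _ _ _ _ _ a b => a.mul_left b) (fun _ _ _ _ _ _ a b => a.mul_right b)
      (fun _ _ _ _ a => a.inv_left) (fun _ _ _ _ a => a.inv_right) h1 h3
    rintro a b (rfl | rfl) (rfl | rfl)
    exacts [rfl, hAB, hAB.symm, rfl]
  have key : ∀ (k : ℕ) (g₀ : P), g₀⁻¹ * z ^ k * g₀ ∈ R → g₀⁻¹ * z ^ k * g₀ = z ^ k := fun k g _ => by
    rw [mul_assoc, h.comm (z := z ^ k) (by simp [hz]) g]; group
  have h1 := MonoidHom.transfer_eq_pow (Abelianization.of : R →* _) z key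
  have h0 : z ∈ commutator P := by
    have := h.core.perfect.ge z.2
    rw [← map_subtype_commutator] at this
    obtain ⟨w, h2, h3⟩ := this
    exact Subtype.ext h3 ▸ h2
  rw [show MonoidHom.transfer (Abelianization.of : R →* _) z = 1 from Abelianization.commutator_subset_ker _ h0,
    eq_comm, ← MonoidHom.mem_ker, Abelianization.ker_of] at h1
  have h2 : commutator R = ⊥ := commutator_eq_bot_iff_le_centralizer.2 fun a _ => mem_centralizer_iff.2 fun b _ =>
    Subtype.ext (commutatorElement_eq_one_iff_mul_comm.1 (hR _ b.2 _ a.2))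
  rw [h2, mem_bot, Subtype.ext_iff] at h1
  have := pow_gcd_eq_one.2 ⟨show z ^ R.index = 1 from h1, h.cube hz⟩
  rwa [index_comap_of_surjective _ h.surj, hi, pow_one] at this

theorem real_of (hz : ∀ z : P, π z = 1 → z = 1) {x y : P} (e : IsConj (π x) (π y)) : trc y.1 = trc x.1 := by
  obtain ⟨s, hs⟩ := isConj_iff.1 e
  obtain ⟨u, rfl⟩ := h.surj s
  have := hz (u * x * u⁻¹ * y⁻¹) (by simp [hs])
  rw [← mul_inv_eq_one.1 this]
  exact trc_conj _ _

/-- no automorphism inverting `a` and fixing `b` -/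
theorem no_flip {g : GL (Fin 3) F} {α : MulAut S} (hg : Ind π g α) {A B : P} (hc : π ⁅A, B⁆ = 1)
    (e1 : α (π A) = (π A)⁻¹) (e2 : α (π B) = π B) : A * B = B * A := by
  have h1 := h.comm_ind hg (x' := A⁻¹) hc (by rw [e1, map_inv]) e2.symm
  have h2 : ⁅A, B⁆ ^ 2 = 1 := by
    calc _ = A⁻¹ * (⁅A, B⁆ * A) * ⁅A⁻¹, B⁆ := by rw [h1, h.comm hc, pow_two]; group
      _ = 1 := by simp only [commutatorElement_def]; group
  have := pow_gcd_eq_one.2 ⟨h2, h.cube hc⟩
  exact commutatorElement_eq_one_iff_mul_comm.1 (by simpa using this)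

end Prj

end Cfsg.Agent.MiX
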